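import Cfsg.Agent.H141.Ux.Stmts
import Cfsg.Agent.H914.Sub
import Cfsg.Agent.H925.OrthBasic

/-!
# UN3 of UX (S5716, unbounded rank), part 1: coordinates, numbers, subfield groups (helper917)
-/

set_option autoImplicit false
set_option linter.unusedSectionVars false

namespace Cfsg.Agent.H917.Ux

open Module Matrix Cfsg.Geo
open Cfsg.Agent.H847.Bs Cfsg.Agent.H141.Ux
open Cfsg.Agent.LieClassical.OrthFinite (glEquiv glEquiv_apply)

section coord

variable {F U : Type*} [Field F] [AddCommGroup U] [Module F U] {n : ℕ} (φ : U ≃ₗ[F] (Fin n → F))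

/-- conjugation by a coordinate system -/
def cjE : (U ≃ₗ[F] U) ≃* ((Fin n → F) ≃ₗ[F] (Fin n → F)) where
  toFun g := (φ.symm.trans g).trans φ
  invFun g := (φ.trans g).trans φ.symm
  left_inv g := by ext x; simp
  right_inv g := by ext x; simp
  map_mul' g h := by ext x; simp [LinearEquiv.mul_apply]

/-- linear automorphisms as invertible matrices -/
noncomputable def gl : (U ≃ₗ[F] U) ≃* GL (Fin n) F := (cjE φ).trans (glEquiv (Fin n) F).symm

theorem gl_mulVec (g : U ≃ₗ[F] U) (v : U) : (gl φ g : Matrix (Fin n) (Fin n) F) *ᵥ φ v = φ (g v) := by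
  rw [← glEquiv_apply, gl, MulEquiv.trans_apply, MulEquiv.apply_symm_apply]
  show φ (g (φ.symm (φ v))) = _
  rw [LinearEquiv.symm_apply_apply]

theorem gl_mulVec' (g : U ≃ₗ[F] U) (v : Fin n → F) :
    (gl φ g : Matrix (Fin n) (Fin n) F) *ᵥ v = φ (g (φ.symm v)) := by
  rw [← gl_mulVec, LinearEquiv.apply_symm_apply]

theorem gl_symm_apply (A : GL (Fin n) F) (v : U) :
    (gl φ).symm A v = φ.symm ((A : Matrix (Fin n) (Fin n) F) *ᵥ φ v) := by
  obtain ⟨g, rfl⟩ := (gl φ).surjective A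
  rw [MulEquiv.symm_apply_apply, gl_mulVec, LinearEquiv.symm_apply_apply]

/-- the matrix group of a linear group -/
noncomputable def mat (K : Subgroup (U ≃ₗ[F] U)) : Subgroup (GL (Fin n) F) := K.map (gl φ).toMonoidHom

theorem mem_mat {K : Subgroup (U ≃ₗ[F] U)} {A : GL (Fin n) F} : A ∈ mat φ K ↔ (gl φ).symm A ∈ K :=
  Subgroup.mem_map_equiv

theorem gl_mem_mat {K : Subgroup (U ≃ₗ[F] U)} {g : U ≃ₗ[F] U} : gl φ g ∈ mat φ K ↔ g ∈ K := by
  rw [mem_mat, MulEquiv.symm_apply_apply]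

theorem irr_mat {K : Subgroup (U ≃ₗ[F] U)} (h : IrrG K) : ActsIrreducibly (matrixSet (mat φ K)) := by
  intro W hW
  have h1 := h (W.comap (φ : U →ₗ[F] (Fin n → F))) (by
    intro g hg v hv
    show φ (g v) ∈ W
    rw [← gl_mulVec]
    apply hW _ ⟨gl φ g, (gl_mem_mat φ).2 hg, rfl⟩
    exact ⟨φ v, hv, Matrix.toLin'_apply _ _⟩)
  rcases h1 with h1 | h1
  · left
    rw [eq_bot_iff]
    intro x hx
    have h2 : φ.symm x ∈ W.comap (φ : U →ₗ[F] (Fin n → F)) := by
      show φ (φ.symm x) ∈ W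
      rwa [LinearEquiv.apply_symm_apply]
    rw [h1, Submodule.mem_bot] at h2
    rw [Submodule.mem_bot]
    simpa using congrArg φ h2
  · right
    rw [eq_top_iff]
    intro x _
    have h2 : φ.symm x ∈ W.comap (φ : U →ₗ[F] (Fin n → F)) := by rw [h1]; exact Submodule.mem_top
    have h3 : φ (φ.symm x) ∈ W := h2
    rwa [LinearEquiv.apply_symm_apply] at h3

theorem det_gl (g : U ≃ₗ[F] U) : (gl φ g : Matrix (Fin n) (Fin n) F).det = LinearMap.det (g : U →ₗ[F] U) := by
  have h1 : Matrix.toLin' (gl φ g : Matrix (Fin n) (Fin n) F) =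
      (φ : U →ₗ[F] (Fin n → F)) ∘ₗ (g : U →ₗ[F] U) ∘ₗ (φ.symm : (Fin n → F) →ₗ[F] U) := by
    ext v : 1
    refine LinearMap.ext fun x => ?_
    show Matrix.toLin' (gl φ g : Matrix (Fin n) (Fin n) F) (LinearMap.single F (fun _ : Fin n => F) v x) = _
    rw [Matrix.toLin'_apply, gl_mulVec']
    rfl
  rw [← LinearMap.det_toLin', h1]
  exact LinearMap.det_conj (g : U →ₗ[F] U) φ

theorem det_gl_eq_one {g : U ≃ₗ[F] U} : Matrix.GeneralLinearGroup.det (gl φ g) = 1 ↔ g ∈ slV F U := by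
  have h1 : (Matrix.GeneralLinearGroup.det (gl φ g) : F) = LinearMap.det (g : U →ₗ[F] U) := det_gl φ g
  constructor
  · intro h
    rw [h] at h1
    exact h1.symm
  · intro h
    apply Units.ext
    rw [h1]
    exact h

end coord

/-! ### numbers -/

section num

variable {F : Type*} [Field F] [Finite F] {k m : ℕ}

theorem exists_f : ∃ f : ℕ, 0 < f ∧ Nat.card F = ringChar F ^ f ∧ (ringChar F).Prime := by
  have hc : CharP F (ringChar F) := ringChar.charP F
  have hft := Fintype.ofFinite F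
  obtain ⟨f, hp, hf⟩ := FiniteField.card F (ringChar F)
  exact ⟨f, f.pos, by rw [Nat.card_eq_fintype_card, hf], hp⟩

theorem dvd_sub_one_iff {r q i : ℕ} (hq : 0 < q) : r ∣ q ^ i - 1 ↔ ((q : ℕ) : ZMod r) ^ i = 1 := by
  rw [← ZMod.natCast_eq_zero_iff, Nat.cast_sub (Nat.one_le_pow _ _ hq), Nat.cast_pow, Nat.cast_one, sub_eq_zero]

theorem pp_dvd {f r i : ℕ} (h : Pp F k m) (hf : Nat.card F = ringChar F ^ f) (hr : r.Prime) (hrm : r ∣ m)
    (hi : r ∣ ringChar F ^ i - 1) (hp : 0 < ringChar F) : k * f ∣ i := by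
  rw [← h.2.2 r hr hrm f hf]
  exact orderOf_dvd_of_pow_eq_one ((dvd_sub_one_iff hp).1 hi)

theorem pp_cop (h : Pp F k m) : ∀ i : ℕ, 1 ≤ i → i < k → Nat.Coprime m (Nat.card F ^ i - 1) := by
  intro i hi hik
  obtain ⟨f, hf0, hf, hp⟩ := exists_f (F := F)
  rw [Nat.coprime_iff_gcd_eq_one]
  by_contra hne
  obtain ⟨r, hr, hrd⟩ := Nat.exists_prime_and_dvd hne
  have h1 : r ∣ ringChar F ^ (f * i) - 1 := by
    rw [pow_mul, ← hf]
    exact hrd.trans (Nat.gcd_dvd_right _ _)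
  have h2 := pp_dvd h hf hr (hrd.trans (Nat.gcd_dvd_left _ _)) h1 hp.pos
  rw [mul_comm f i] at h2
  have h3 := Nat.le_of_dvd (by omega) (Nat.dvd_of_mul_dvd_mul_right hf0 h2)
  omega

/-- **Subfield groups of prime index contain no element of primitive order.** -/
theorem subfield_false {n : ℕ} (hk : n < 2 * k) (hk1 : 1 < k) {g : GL (Fin n) F} (h : Pp F k (orderOf g)) (F₀ : Subfield F)
    {r : ℕ} (hr : r.Prime) (P : GL (Fin n) F) (hc : Nat.card F = Nat.card F₀ ^ r)
    (hg : g ∈ subfieldSubgroup F₀ P) : False := by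
  obtain ⟨f, hf0, hf, hp⟩ := exists_f (F := F)
  have hkpos : 0 < k := by
    by_contra h0
    omega
  have hm1 : orderOf g ≠ 1 := by have := h.1; omega
  obtain ⟨l, hl, hlm⟩ := Nat.exists_prime_and_dvd hm1
  have hl0 : ¬ l ∣ ringChar F := by
    intro hlp
    have h1 : l ∣ Nat.card F ^ k := by
      rw [hf]
      exact dvd_pow (dvd_pow hlp hf0.ne') hkpos.ne'
    have h2 : l ∣ Nat.card F ^ k - 1 := hlm.trans h.2.1
    have h3 : 1 ≤ Nat.card F ^ k := Nat.one_le_pow _ _ Nat.card_pos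
    have h4 := Nat.dvd_sub h1 h2
    have h5 : Nat.card F ^ k - (Nat.card F ^ k - 1) = 1 := by omega
    rw [h5] at h4
    exact hl.one_lt.ne' (Nat.dvd_one.1 h4)
  -- the subfield
  obtain ⟨f₀, hf₀⟩ : ∃ f₀ : ℕ, Nat.card F₀ = ringChar F ^ f₀ := by
    have h1 : Nat.card F₀ ∣ ringChar F ^ f := by
      rw [← hf, hc]
      exact dvd_pow_self _ hr.ne_zero
    obtain ⟨f₀, -, h2⟩ := (Nat.dvd_prime_pow hp).1 h1
    exact ⟨f₀, h2⟩
  have hff : f = f₀ * r := by
    rw [hf, hf₀, ← pow_mul] at hc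
    exact Nat.pow_right_injective hp.two_le hc
  -- a power of `g` over the subfield
  rw [Cfsg.Agent.H914.mem_subfieldSubgroup_iff] at hg
  obtain ⟨c, hc0, hcg⟩ := hg
  set M : GL (Fin n) F := P⁻¹ * g * P with hM
  let A₀ : Matrix (Fin n) (Fin n) F₀ := fun i j => ⟨c * (M : Matrix (Fin n) (Fin n) F) i j, hcg i j⟩
  have hA : (F₀.subtype : F₀ →+* F).mapMatrix A₀ = c • (M : Matrix (Fin n) (Fin n) F) := by
    ext i j
    rfl
  have hdet : A₀.det ≠ 0 := by
    intro h0
    have h2 := RingHom.map_det (F₀.subtype : F₀ →+* F) A₀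
    rw [h0, map_zero, hA, Matrix.det_smul] at h2
    have h3 : (M : Matrix (Fin n) (Fin n) F).det ≠ 0 := by
      have : IsUnit (M : Matrix (Fin n) (Fin n) F) := ⟨M, rfl⟩
      exact ((Matrix.isUnit_iff_isUnit_det _).mp this).ne_zero
    exact (mul_ne_zero (pow_ne_zero _ hc0) h3) h2.symm
  let A : GL (Fin n) F₀ := Matrix.GeneralLinearGroup.mkOfDetNeZero A₀ hdet
  have hft := Fintype.ofFinite F
  have hA1 : Matrix.GeneralLinearGroup.map (F₀.subtype : F₀ →+* F) (A ^ (Nat.card F - 1)) = M ^ (Nat.card F - 1) := by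
    apply Units.ext
    have h1 : ((Matrix.GeneralLinearGroup.map (F₀.subtype : F₀ →+* F) A : GL (Fin n) F) :
        Matrix (Fin n) (Fin n) F) = c • (M : Matrix (Fin n) (Fin n) F) := by
      rw [← hA]
      rfl
    rw [map_pow, Units.val_pow_eq_pow_val, Units.val_pow_eq_pow_val, h1, smul_pow, Nat.card_eq_fintype_card,
      FiniteField.pow_card_sub_one_eq_one c hc0, one_smul]
  have hinj : Function.Injective (Matrix.GeneralLinearGroup.map (n := Fin n) (F₀.subtype : F₀ →+* F)) := by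
    intro X Y hXY
    apply Units.ext
    ext i j
    have h1 : ((Matrix.GeneralLinearGroup.map (F₀.subtype : F₀ →+* F) X : GL (Fin n) F) :
      Matrix (Fin n) (Fin n) F) i j = ((Matrix.GeneralLinearGroup.map (F₀.subtype : F₀ →+* F) Y : GL (Fin n) F) :
      Matrix (Fin n) (Fin n) F) i j := by rw [hXY]
    exact h1
  have hord : orderOf (A ^ (Nat.card F - 1)) = orderOf g := by
    rw [← orderOf_injective _ hinj, hA1]
    have h1 : orderOf M = orderOf g := by
      have h2 : M = MulAut.conj P⁻¹ g := by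
        rw [hM, MulAut.conj_apply, inv_inv]
      rw [h2]
      exact MulEquiv.orderOf_eq (MulAut.conj P⁻¹) g
    rw [← h1]
    apply Nat.Coprime.orderOf_pow
    rw [h1]
    have h2 := pp_cop h 1 le_rfl hk1
    rwa [pow_one] at h2
  have hfin₀ : Finite F₀ := inferInstance
  have hft₀ := Fintype.ofFinite F₀
  have hlc : l ∣ Nat.card (GL (Fin n) F₀) := by
    rw [← hord] at hlm
    exact hlm.trans (orderOf_dvd_natCard _)
  rw [Matrix.card_GL_field, ← Nat.card_eq_fintype_card] at hlc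
  obtain ⟨i, -, hi⟩ := (Prime.dvd_finsetProd_iff (Nat.prime_iff.1 hl) _).1 hlc
  have hin : (i : ℕ) < n := i.2
  have h5 : Nat.card F₀ ^ n - Nat.card F₀ ^ (i : ℕ) = Nat.card F₀ ^ (i : ℕ) * (Nat.card F₀ ^ (n - i) - 1) := by
    rw [Nat.mul_sub, mul_one, ← pow_add]
    congr 2
    omega
  rw [h5] at hi
  have h6 : ¬ l ∣ Nat.card F₀ ^ (i : ℕ) := by
    intro h7
    apply hl0
    have h8 := hl.dvd_of_dvd_pow h7
    rw [hf₀] at h8
    exact hl.dvd_of_dvd_pow h8
  have h7 := (hl.dvd_mul.1 hi).resolve_left h6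
  rw [hf₀, ← pow_mul] at h7
  have h8 := pp_dvd h hf hl hlm h7 hp.pos
  rw [hff] at h8
  have hf₀0 : 0 < f₀ := by
    rcases Nat.eq_zero_or_pos f₀ with h0 | h0
    · rw [h0, zero_mul] at hff
      omega
    · exact h0
  have h9 : k * r ∣ n - i := by
    have h10 : f₀ * (k * r) ∣ f₀ * (n - i) := by
      have : f₀ * (k * r) = k * (f₀ * r) := by ring
      rw [this]
      exact h8
    exact Nat.dvd_of_mul_dvd_mul_left hf₀0 h10
  have h10 := Nat.le_of_dvd (by omega) h9
  have h12 : k * 2 ≤ k * r := Nat.mul_le_mul_left k hr.two_le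
  omega

end num

end Cfsg.Agent.H917.Ux
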