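import Cfsg.Agent.H917.Ux.Coord
import Cfsg.Agent.H948.Ux.NatE
import Cfsg.Agent.H895.SLT.Sigma

/-!
# UN3 of UX (S5716, unbounded rank): `UN` from the matrix statement (helper917)
-/

set_option autoImplicit false
set_option linter.unusedSectionVars false

namespace Cfsg.Agent.H917.Ux

open Module Matrix Cfsg.Geo QuadraticMap
open Cfsg.Agent.H847.Bs Cfsg.Agent.H141.Ux
open Cfsg.Agent.LieClassical.OrthCore (E siegel siegelSet siegel_apply)
open Cfsg.Agent.H914 (IsSesq le_similarityGroup_of_fixes)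

/-- the input `un2` (helper887) -/
def UN2 : Prop := ∀ (F : Type) [Field F] [Finite F] (n k : ℕ), 10 ≤ n → n < 2 * k → ∀ g : GL (Fin n) F,
  2 * k + 1 < orderOf g → orderOf g ∣ Nat.card F ^ k - 1 →
  (∀ i : ℕ, 1 ≤ i → i < k → Nat.Coprime (orderOf g) (Nat.card F ^ i - 1)) →
  ∀ H : Subgroup (GL (Fin n) F), g ∈ H → ActsIrreducibly (matrixSet H) →
  (∃ (F₀ : Subfield F) (r : ℕ) (P : GL (Fin n) F), r.Prime ∧ Nat.card F = Nat.card F₀ ^ r ∧
      H ≤ subfieldSubgroup F₀ P) ∨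
  (∃ (r : ℕ) (E : Subalgebra F (Matrix (Fin n) (Fin n) F)), r.Prime ∧ r ∣ Nat.gcd n k ∧
      IsFieldSubalgebra r E ∧ H ≤ subalgebraNormalizer E) ∨
  ∃ P ≤ H, (∀ h ∈ H, ∀ x ∈ P, h * x * h⁻¹ ∈ P) ∧ ActsAbsolutelyIrreducibly (matrixSet P) ∧
    Cfsg.Agent.H948.Ux.NatE P

section

variable {F U : Type*} [Field F] [AddCommGroup U] [Module F U] {n : ℕ} (φ : U ≃ₗ[F] (Fin n → F))

/-! ### the field case -/

theorem field_case {K : Subgroup (U ≃ₗ[F] U)} {r : ℕ} {A : Subalgebra F (Matrix (Fin n) (Fin n) F)}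
    (hA : IsFieldSubalgebra r A) (hn : 0 < n) (hK : mat φ K ≤ subalgebraNormalizer A) :
    ∃ T : Subalgebra F (Module.End F U), IsField T ∧ finrank F T = r ∧
      ∀ h ∈ K, ∀ a ∈ T, (h : U →ₗ[F] U) * a * ((h⁻¹ : U ≃ₗ[F] U) : U →ₗ[F] U) ∈ T := by
  have : Nonempty (Fin n) := ⟨⟨0, hn⟩⟩
  let ψ : Matrix (Fin n) (Fin n) F ≃ₐ[F] Module.End F U :=
    Matrix.toLinAlgEquiv'.trans (LinearEquiv.conjAlgEquiv F φ.symm)
  have hψ : ∀ (M : Matrix (Fin n) (Fin n) F) (u : U), ψ M u = φ.symm (M *ᵥ φ u) := by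
    intro M u
    rfl
  have hψg : ∀ h : U ≃ₗ[F] U, ψ (gl φ h : Matrix (Fin n) (Fin n) F) = (h : U →ₗ[F] U) := by
    intro h
    refine LinearMap.ext fun u => ?_
    rw [hψ, gl_mulVec, LinearEquiv.symm_apply_apply]
    rfl
  refine ⟨A.map (ψ : Matrix (Fin n) (Fin n) F →ₐ[F] Module.End F U), ?_, ?_, ?_⟩
  · refine ⟨⟨0, 1, ?_⟩, ?_, ?_⟩
    · intro h01
      have h1 : (0 : Module.End F U) = 1 := congrArg Subtype.val h01
      have h2 : (0 : Matrix (Fin n) (Fin n) F) = 1 := by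
        apply ψ.injective
        rw [map_zero, map_one]
        exact h1
      exact zero_ne_one h2
    · rintro ⟨_, x, hx, rfl⟩ ⟨_, y, hy, rfl⟩
      apply Subtype.ext
      show ψ x * ψ y = ψ y * ψ x
      rw [← map_mul, ← map_mul, hA.comm x hx y hy]
    · rintro ⟨_, x, hx, rfl⟩ hne
      have hx0 : x ≠ 0 := by
        rintro rfl
        apply hne
        apply Subtype.ext
        exact map_zero ψ
      obtain ⟨y, hy, hxy⟩ := hA.inv x hx hx0
      refine ⟨⟨ψ y, y, hy, rfl⟩, ?_⟩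
      apply Subtype.ext
      show ψ x * ψ y = 1
      rw [← map_mul, hxy, map_one]
  · rw [← hA.finrank_eq]
    exact (AlgEquiv.subalgebraMap ψ A).symm.toLinearEquiv.finrank_eq
  · rintro h hh _ ⟨x, hx, rfl⟩
    refine ⟨(gl φ h : Matrix (Fin n) (Fin n) F) * x * ((gl φ h)⁻¹ : GL (Fin n) F), ?_, ?_⟩
    · exact (hK ((gl_mem_mat φ).2 hh) x).1 hx
    · show ψ _ = (h : U →ₗ[F] U) * ψ x * ((h⁻¹ : U ≃ₗ[F] U) : U →ₗ[F] U)
      rw [map_mul, map_mul, hψg, ← map_inv, hψg]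

/-! ### forms -/

theorem card_sq [Finite F] {τ : F ≃+* F} {f : (Fin n → F) → (Fin n → F) → F} (hf : IsUnitaryForm τ f) :
    ∃ r : ℕ, Nat.card F = r ^ 2 ∧ ∀ x, τ x = x ^ r := by
  have := Fintype.ofFinite F
  obtain ⟨r, h1, h2⟩ := Cfsg.Agent.H895.SLT.unitary_sigma hf.involutive hf.ne_refl
  exact ⟨r, by rw [Nat.card_eq_fintype_card, h1], h2⟩

/-- a form on `F ^ n` as a form on `U` -/
def frm {σ : F ≃+* F} {f : (Fin n → F) → (Fin n → F) → F} (hf : IsSesq σ f)
    (hr : ∀ x y, f x y = 0 → f y x = 0) : Frm F U where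
  B x y := f (φ x) (φ y)
  q _ := 0
  s := σ
  add_left x y z := by rw [map_add, hf.add_left]
  add_right x y z := by rw [map_add, hf.add_right]
  smul_left a x y := by rw [map_smul, hf.smul_left]
  smul_right a x y := by rw [map_smul, hf.smul_right]
  refl x y h := hr _ _ h
  q_add x y h := by rw [add_zero]

theorem nd_frm {σ : F ≃+* F} {f : (Fin n → F) → (Fin n → F) → F} (hf : IsSesq σ f)
    (hr : ∀ x y, f x y = 0 → f y x = 0) (hn : IsNondegenerateForm f) : (frm φ hf hr).Nd := by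
  intro x hx
  by_contra h0
  obtain ⟨-, y, hy⟩ := hn (φ x) (by simpa using h0)
  apply hy
  have h1 : f (φ x) (φ (φ.symm y)) = 0 := hx (φ.symm y)
  rwa [LinearEquiv.apply_symm_apply] at h1

theorem fixes_of_iso {σ : F ≃+* F} {f : (Fin n → F) → (Fin n → F) → F} (hf : IsSesq σ f)
    (hr : ∀ x y, f x y = 0 → f y x = 0) {g : U ≃ₗ[F] U} (hg : g ∈ (frm φ hf hr).Iso) :
    FixesForm {((gl φ g : GL (Fin n) F) : Matrix (Fin n) (Fin n) F)} f := by
  rintro _ rfl u v
  rw [gl_mulVec', gl_mulVec']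
  have h1 : f (φ (g (φ.symm u))) (φ (g (φ.symm v))) = f (φ (φ.symm u)) (φ (φ.symm v)) := hg.1 _ _
  rw [h1, LinearEquiv.apply_symm_apply, LinearEquiv.apply_symm_apply]

theorem sim_frm {σ : F ≃+* F} {f : (Fin n → F) → (Fin n → F) → F} (hf : IsSesq σ f)
    (hr : ∀ x y, f x y = 0 → f y x = 0) {K : Subgroup (U ≃ₗ[F] U)} (hK : mat φ K ≤ similarityGroup f) :
    ∀ h ∈ K, Sim (frm φ hf hr) h := by
  intro h hh
  obtain ⟨c, hc⟩ := hK ((gl_mem_mat φ).2 hh)
  refine ⟨c, fun u v => ?_⟩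
  show f (φ (h u)) (φ (h v)) = c * f (φ u) (φ v)
  rw [← gl_mulVec, ← gl_mulVec, hc]

/-! ### quadratic forms -/

/-- a quadratic form on `F ^ n` as a quadratic form on `U` -/
noncomputable def qU {Q : (Fin n → F) → F} (hQ : IsNondegenerateQuadraticForm Q) : QuadraticForm F U :=
  (Cfsg.Agent.H925.qf hQ).comp (φ : U →ₗ[F] (Fin n → F))

theorem qU_apply {Q : (Fin n → F) → F} (hQ : IsNondegenerateQuadraticForm Q) (u : U) : qU φ hQ u = Q (φ u) := rfl

theorem polar_qU {Q : (Fin n → F) → F} (hQ : IsNondegenerateQuadraticForm Q) (u v : U) :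
    polar (qU φ hQ) u v = polar Q (φ u) (φ v) := by
  show Q (φ (u + v)) - Q (φ u) - Q (φ v) = Q (φ u + φ v) - Q (φ u) - Q (φ v)
  rw [map_add]

theorem E_le [Finite F] {Q : (Fin n → F) → F} (hQ : IsNondegenerateQuadraticForm Q) (hn : 5 ≤ n)
    {K : Subgroup (U ≃ₗ[F] U)} (hK : omegaGL Q ≤ mat φ K) : E (qU φ hQ) ≤ K := by
  show Subgroup.closure (siegelSet (qU φ hQ)) ≤ K
  rw [Subgroup.closure_le]
  rintro _ ⟨u, w, hu, hw, rfl⟩
  obtain ⟨g, hg, h⟩ := Cfsg.Agent.H925.exists_siegel hQ (by rwa [Fintype.card_fin]) (u := φ u) (w := φ w)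
    (by rw [← hu]; rfl) (by rw [← hw, polar_qU])
  have h1 : siegel (qU φ hQ) u w hu hw = (gl φ).symm g := by
    refine LinearEquiv.ext fun v => ?_
    rw [gl_symm_apply, h, siegel_apply, polar_qU, polar_qU, qU_apply]
    simp only [map_add, map_sub, map_smul, LinearEquiv.symm_apply_apply]
  rw [SetLike.mem_coe, h1]
  exact (mem_mat φ).1 (hK hg)

/-- A group normalising an absolutely irreducible group of isometries of `Q` consists of similarities of `Q`. -/
theorem quad_sim [Finite F] (hn : 2 ≤ n) {P H : Subgroup (GL (Fin n) F)} (hPn : ∀ h ∈ H, ∀ x ∈ P, h * x * h⁻¹ ∈ P)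
    (hirr : ActsAbsolutelyIrreducibly (matrixSet P)) {Q : (Fin n → F) → F} (hQ : IsNondegenerateQuadraticForm Q)
    (hPQ : ∀ x ∈ P, ∀ v, Q ((x : Matrix (Fin n) (Fin n) F) *ᵥ v) = Q v) :
    ∀ h ∈ H, ∃ c : F, ∀ v, Q ((h : Matrix (Fin n) (Fin n) F) *ᵥ v) = c * Q v := by
  intro h hh
  have hfP : FixesForm (matrixSet P) (polar Q) := by
    rintro _ ⟨x, hx, rfl⟩ u v
    show Q (_ + _) - Q _ - Q _ = Q (u + v) - Q u - Q v
    rw [← Matrix.mulVec_add, hPQ x hx, hPQ x hx, hPQ x hx]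
  obtain ⟨c, hc⟩ := le_similarityGroup_of_fixes hPn hirr (IsSesq.of_bilinear hQ.polar_bilinear)
    hQ.nondegenerate hfP hh
  refine ⟨c, ?_⟩
  set D : (Fin n → F) → F := fun v => Q ((h : Matrix (Fin n) (Fin n) F) *ᵥ v) - c * Q v with hD
  have hadd : ∀ u v, D (u + v) = D u + D v := by
    intro u v
    have h1 : Q ((h : Matrix (Fin n) (Fin n) F) *ᵥ u + (h : Matrix (Fin n) (Fin n) F) *ᵥ v) -
        Q ((h : Matrix (Fin n) (Fin n) F) *ᵥ u) - Q ((h : Matrix (Fin n) (Fin n) F) *ᵥ v) =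
        (c : F) * (Q (u + v) - Q u - Q v) := hc u v
    simp only [hD]
    rw [Matrix.mulVec_add]
    linear_combination h1
  have hsmul : ∀ (a : F) v, D (a • v) = a ^ 2 * D v := by
    intro a v
    simp only [hD]
    rw [Matrix.mulVec_smul, hQ.smul, hQ.smul]
    ring
  have hinv : ∀ x ∈ P, ∀ v, D ((x : Matrix (Fin n) (Fin n) F) *ᵥ v) = D v := by
    intro x hx v
    have h1 : (h : Matrix (Fin n) (Fin n) F) *ᵥ ((x : Matrix (Fin n) (Fin n) F) *ᵥ v) =
        ((h * x * h⁻¹ : GL (Fin n) F) : Matrix (Fin n) (Fin n) F) *ᵥ ((h : Matrix (Fin n) (Fin n) F) *ᵥ v) := by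
      rw [Matrix.mulVec_mulVec, Matrix.mulVec_mulVec, ← Units.val_mul, ← Units.val_mul, inv_mul_cancel_right]
    simp only [hD]
    rw [h1, hPQ _ (hPn h hh x hx), hPQ x hx]
  let W : Submodule F (Fin n → F) :=
    { carrier := {v | D v = 0}
      zero_mem' := by
        show D 0 = 0
        have := hsmul 0 0
        rwa [zero_smul, zero_pow (by norm_num), zero_mul] at this
      add_mem' := by
        intro u v hu hv
        show D (u + v) = 0
        rw [hadd, show D u = 0 from hu, show D v = 0 from hv, add_zero]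
      smul_mem' := by
        intro a v hv
        show D (a • v) = 0
        rw [hsmul, show D v = 0 from hv, mul_zero] }
  rcases hirr.1 W (by
    rintro _ ⟨x, hx, rfl⟩ _ ⟨v, hv, rfl⟩
    show D (Matrix.toLin' (x : Matrix (Fin n) (Fin n) F) v) = 0
    rw [Matrix.toLin'_apply, hinv x hx]
    exact hv) with h1 | h1
  · exfalso
    have hinj : Function.Injective D := by
      intro u v huv
      have h2 : u - v ∈ W := by
        show D (u - v) = 0
        have h3 := hadd (u - v) v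
        rw [sub_add_cancel] at h3
        linear_combination h3.symm + huv
      rw [h1, Submodule.mem_bot, sub_eq_zero] at h2
      exact h2
    have h2 := Nat.card_le_card_of_injective D hinj
    rw [Nat.card_pi, Finset.prod_const, Finset.card_univ, Fintype.card_fin] at h2
    have h3 : 1 < Nat.card F := Finite.one_lt_card
    have h4 : Nat.card F ^ 2 ≤ Nat.card F ^ n := Nat.pow_le_pow_right (by omega) hn
    nlinarith
  · intro v
    have h2 : v ∈ W := by rw [h1]; exact Submodule.mem_top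
    exact sub_eq_zero.1 h2

end

open Classical in
/-- **UN3**: the statement `UN` from the matrix statement `un2`. -/
theorem un3 (h2 : UN2) : UN := by
  intro F U _ _ _ _ _ K k g C hn hk hirr hg hPp hC hCk hCg
  set n := finrank F U with hn'
  let φ : U ≃ₗ[F] (Fin n → F) := (Module.finBasis F U).equivFun
  have hord : orderOf (gl φ g) = orderOf g := MulEquiv.orderOf_eq (gl φ) g
  have hPp' : Pp F k (orderOf (gl φ g)) := by rwa [hord]
  rcases h2 F n k hn hk (gl φ g) hPp'.1 hPp'.2.1 (pp_cop hPp') (mat φ K) ((gl_mem_mat φ).2 hg)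
    (irr_mat φ hirr) with ⟨F₀, r, P, hr, hc, hle⟩ | ⟨r, A, hr, hrd, hA, hle⟩ | ⟨P, hPK, hPn, hPirr, hE⟩
  · exact (subfield_false hk (by omega) hPp' F₀ hr P hc (hle ((gl_mem_mat φ).2 hg))).elim
  · obtain ⟨T, h3, h4, h5⟩ := field_case φ hA (by omega) hle
    exact Or.inl ⟨r, T, hr, hrd, h3, h4, h5⟩
  right
  rcases hE with hE | ⟨f, hf, hfP, hE⟩ | ⟨τ, f, hf, hfP, hE⟩ | ⟨Q, hQ, hPQ, hE⟩
  · left
    intro x hx
    rw [← gl_mem_mat φ]
    apply hPK
    apply hE
    exact (det_gl_eq_one φ).2 hx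
  · right; left
    have hs := IsSesq.of_bilinear hf.bilinear
    have hr : ∀ x y, f x y = 0 → f y x = 0 := fun x y h => by rw [hf.skew, h, neg_zero]
    refine ⟨frm φ hs hr, ⟨nd_frm φ hs hr hf.nondegenerate, fun _ => rfl, fun _ => rfl,
      fun x => hf.alternating _⟩, ?_, ?_⟩
    · intro x hx
      rw [← gl_mem_mat φ]
      exact hPK (hE _ (fixes_of_iso φ hs hr hx))
    · apply sim_frm
      apply le_similarityGroup_of_fixes hPn hPirr hs hf.nondegenerate
      rintro _ ⟨x, hx, rfl⟩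
      exact hfP x hx _ rfl
  · right; right; left
    have hs := IsSesq.of_unitary hf
    have hr : ∀ x y, f x y = 0 → f y x = 0 := fun x y h => by rw [hf.herm, h, map_zero]
    obtain ⟨r, hrc, hrτ⟩ := card_sq hf
    refine ⟨r, frm φ hs hr, ⟨nd_frm φ hs hr hf.nondegenerate, hrc, hrτ, fun _ => rfl,
      fun x y => ?_⟩, ?_, ?_⟩
    · show f (φ y) (φ x) = f (φ x) (φ y) ^ r
      rw [hf.herm, hrτ]
    · rintro x ⟨hx, hx1⟩
      rw [← gl_mem_mat φ]
      exact hPK (hE _ (fixes_of_iso φ hs hr hx) ((det_gl_eq_one φ).2 hx1))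
    · apply sim_frm
      apply le_similarityGroup_of_fixes hPn hPirr hs hf.nondegenerate
      rintro _ ⟨x, hx, rfl⟩
      exact hfP x hx _ rfl
  · right; right; right
    refine ⟨qU φ hQ, ?_, E_le φ hQ (by omega) (hE.trans hPK), ?_⟩
    · intro v _ hv
      by_contra h0
      obtain ⟨-, y, hy⟩ := hQ.nondegenerate (φ v) (by simpa using h0)
      apply hy
      have h3 := hv (φ.symm y)
      rwa [polar_qU, LinearEquiv.apply_symm_apply] at h3
    · intro h hh
      obtain ⟨c, hc⟩ := quad_sim (by omega) hPn hPirr hQ hPQ (gl φ h) ((gl_mem_mat φ).2 hh)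
      refine ⟨c, fun v => ?_⟩
      rw [qU_apply, qU_apply, ← gl_mulVec, hc]

end Cfsg.Agent.H917.Ux
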